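-- Final assembly of the table HNTT.
import Cfsg.Agent.Lib.Compute.TC.HNTT.Chk
set_option autoImplicit false
set_option maxRecDepth 1000000

open Cfsg.Agent.Lib.Compute.ToddCoxeterCore Cfsg.Agent.Lib.Compute.ToddCoxeterPresented Cfsg.Agent.Lib.Compute.TCFast Cfsg.Agent.Lib.Compute.BitNet Cfsg.Agent.Lib.Compute.PNet

namespace Cfsg.Agent.Lib.Compute.TC.HNTT

theorem small : Small D cfg where
  hL := by decide +kernel
  hLp := by decide +kernel
  hnd := by decide +kernel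
  hinvL := by decide +kernel
  hinvP := by decide +kernel
  hinv2 := by decide +kernel
  hinvol := by decide +kernel
  hrels1 := by decide +kernel
  hrels2 := by decide +kernel
  hhw := by decide +kernel
  hN := by decide +kernel

theorem w0Chk : ∀ w ∈ D.hw, cfg.walk maxS w 0 (Nat.beq 0) = true := by decide +kernel

theorem relLt : ∀ a ∈ relsL, ∀ x ∈ a, x < cfg.L := by decide +kernel

theorem lt21 (P : Nat → Prop) (h0 : P 0) (h1 : P 1) (h2 : P 2) (h3 : P 3) (h4 : P 4) (h5 : P 5) (h6 : P 6) (h7 : P 7) (h8 : P 8) (h9 : P 9) (h10 : P 10) (h11 : P 11) (h12 : P 12) (h13 : P 13) (h14 : P 14) (h15 : P 15) (h16 : P 16) (h17 : P 17) (h18 : P 18) (h19 : P 19) (h20 : P 20) : ∀ b, b < 21 → P b := by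
  intro b hb
  interval_cases b <;> assumption

theorem rpAll0 : ∀ b, b < 21 → chkP netOf cfg.N 21 (List.reverse (List.getD relsL 0 [])) [] b = true :=
  lt21 (fun b => chkP netOf cfg.N 21 (List.reverse (List.getD relsL 0 [])) [] b = true) rp0p0 rp0p1 rp0p2 rp0p3 rp0p4 rp0p5 rp0p6 rp0p7 rp0p8 rp0p9 rp0p10 rp0p11 rp0p12 rp0p13 rp0p14 rp0p15 rp0p16 rp0p17 rp0p18 rp0p19 rp0p20

theorem rpAll1 : ∀ b, b < 21 → chkP netOf cfg.N 21 (List.reverse (List.getD relsL 1 [])) [] b = true :=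
  lt21 (fun b => chkP netOf cfg.N 21 (List.reverse (List.getD relsL 1 [])) [] b = true) rp1p0 rp1p1 rp1p2 rp1p3 rp1p4 rp1p5 rp1p6 rp1p7 rp1p8 rp1p9 rp1p10 rp1p11 rp1p12 rp1p13 rp1p14 rp1p15 rp1p16 rp1p17 rp1p18 rp1p19 rp1p20

theorem rpAll2 : ∀ b, b < 21 → chkP netOf cfg.N 21 (List.reverse (List.getD relsL 2 [])) [] b = true :=
  lt21 (fun b => chkP netOf cfg.N 21 (List.reverse (List.getD relsL 2 [])) [] b = true) rp2p0 rp2p1 rp2p2 rp2p3 rp2p4 rp2p5 rp2p6 rp2p7 rp2p8 rp2p9 rp2p10 rp2p11 rp2p12 rp2p13 rp2p14 rp2p15 rp2p16 rp2p17 rp2p18 rp2p19 rp2p20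

theorem rpAll3 : ∀ b, b < 21 → chkP netOf cfg.N 21 (List.reverse (List.getD relsL 3 [])) [] b = true :=
  lt21 (fun b => chkP netOf cfg.N 21 (List.reverse (List.getD relsL 3 [])) [] b = true) rp3p0 rp3p1 rp3p2 rp3p3 rp3p4 rp3p5 rp3p6 rp3p7 rp3p8 rp3p9 rp3p10 rp3p11 rp3p12 rp3p13 rp3p14 rp3p15 rp3p16 rp3p17 rp3p18 rp3p19 rp3p20

theorem rpAll4 : ∀ b, b < 21 → chkP netOf cfg.N 21 (List.reverse (List.getD relsL 4 [])) [] b = true :=
  lt21 (fun b => chkP netOf cfg.N 21 (List.reverse (List.getD relsL 4 [])) [] b = true) rp4p0 rp4p1 rp4p2 rp4p3 rp4p4 rp4p5 rp4p6 rp4p7 rp4p8 rp4p9 rp4p10 rp4p11 rp4p12 rp4p13 rp4p14 rp4p15 rp4p16 rp4p17 rp4p18 rp4p19 rp4p20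

theorem rpAll5 : ∀ b, b < 21 → chkP netOf cfg.N 21 (List.reverse (List.getD relsL 5 [])) [] b = true :=
  lt21 (fun b => chkP netOf cfg.N 21 (List.reverse (List.getD relsL 5 [])) [] b = true) rp5p0 rp5p1 rp5p2 rp5p3 rp5p4 rp5p5 rp5p6 rp5p7 rp5p8 rp5p9 rp5p10 rp5p11 rp5p12 rp5p13 rp5p14 rp5p15 rp5p16 rp5p17 rp5p18 rp5p19 rp5p20

theorem rpAll6 : ∀ b, b < 21 → chkP netOf cfg.N 21 (List.reverse (List.getD relsL 6 [])) [] b = true :=
  lt21 (fun b => chkP netOf cfg.N 21 (List.reverse (List.getD relsL 6 [])) [] b = true) rp6p0 rp6p1 rp6p2 rp6p3 rp6p4 rp6p5 rp6p6 rp6p7 rp6p8 rp6p9 rp6p10 rp6p11 rp6p12 rp6p13 rp6p14 rp6p15 rp6p16 rp6p17 rp6p18 rp6p19 rp6p20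

theorem rpAll7 : ∀ b, b < 21 → chkP netOf cfg.N 21 (List.reverse (List.getD relsL 7 [])) [] b = true :=
  lt21 (fun b => chkP netOf cfg.N 21 (List.reverse (List.getD relsL 7 [])) [] b = true) rp7p0 rp7p1 rp7p2 rp7p3 rp7p4 rp7p5 rp7p6 rp7p7 rp7p8 rp7p9 rp7p10 rp7p11 rp7p12 rp7p13 rp7p14 rp7p15 rp7p16 rp7p17 rp7p18 rp7p19 rp7p20

theorem rpAll8 : ∀ b, b < 21 → chkP netOf cfg.N 21 (List.reverse (List.getD relsL 8 [])) [] b = true :=
  lt21 (fun b => chkP netOf cfg.N 21 (List.reverse (List.getD relsL 8 [])) [] b = true) rp8p0 rp8p1 rp8p2 rp8p3 rp8p4 rp8p5 rp8p6 rp8p7 rp8p8 rp8p9 rp8p10 rp8p11 rp8p12 rp8p13 rp8p14 rp8p15 rp8p16 rp8p17 rp8p18 rp8p19 rp8p20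

theorem rpAll9 : ∀ b, b < 21 → chkP netOf cfg.N 21 (List.reverse (List.getD relsL 9 [])) [] b = true :=
  lt21 (fun b => chkP netOf cfg.N 21 (List.reverse (List.getD relsL 9 [])) [] b = true) rp9p0 rp9p1 rp9p2 rp9p3 rp9p4 rp9p5 rp9p6 rp9p7 rp9p8 rp9p9 rp9p10 rp9p11 rp9p12 rp9p13 rp9p14 rp9p15 rp9p16 rp9p17 rp9p18 rp9p19 rp9p20

theorem rpAll10 : ∀ b, b < 21 → chkP netOf cfg.N 21 (List.reverse (List.getD relsL 10 [])) [] b = true :=
  lt21 (fun b => chkP netOf cfg.N 21 (List.reverse (List.getD relsL 10 [])) [] b = true) rp10p0 rp10p1 rp10p2 rp10p3 rp10p4 rp10p5 rp10p6 rp10p7 rp10p8 rp10p9 rp10p10 rp10p11 rp10p12 rp10p13 rp10p14 rp10p15 rp10p16 rp10p17 rp10p18 rp10p19 rp10p20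

theorem rpAll11 : ∀ b, b < 21 → chkP netOf cfg.N 21 (List.reverse (List.getD relsL 11 [])) [] b = true :=
  lt21 (fun b => chkP netOf cfg.N 21 (List.reverse (List.getD relsL 11 [])) [] b = true) rp11p0 rp11p1 rp11p2 rp11p3 rp11p4 rp11p5 rp11p6 rp11p7 rp11p8 rp11p9 rp11p10 rp11p11 rp11p12 rp11p13 rp11p14 rp11p15 rp11p16 rp11p17 rp11p18 rp11p19 rp11p20

theorem rpAll12 : ∀ b, b < 21 → chkP netOf cfg.N 21 (List.reverse (List.getD relsL 12 [])) [] b = true :=
  lt21 (fun b => chkP netOf cfg.N 21 (List.reverse (List.getD relsL 12 [])) [] b = true) rp12p0 rp12p1 rp12p2 rp12p3 rp12p4 rp12p5 rp12p6 rp12p7 rp12p8 rp12p9 rp12p10 rp12p11 rp12p12 rp12p13 rp12p14 rp12p15 rp12p16 rp12p17 rp12p18 rp12p19 rp12p20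

theorem rpAll13 : ∀ b, b < 21 → chkP netOf cfg.N 21 (List.reverse (List.getD relsL 13 [])) [] b = true :=
  lt21 (fun b => chkP netOf cfg.N 21 (List.reverse (List.getD relsL 13 [])) [] b = true) rp13p0 rp13p1 rp13p2 rp13p3 rp13p4 rp13p5 rp13p6 rp13p7 rp13p8 rp13p9 rp13p10 rp13p11 rp13p12 rp13p13 rp13p14 rp13p15 rp13p16 rp13p17 rp13p18 rp13p19 rp13p20

theorem rpAll : ∀ r, r < 14 → ∀ b, b < 21 → chkP netOf cfg.N 21 (List.reverse (List.getD relsL r [])) [] b = true := by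
  intro r hr
  interval_cases r
  · exact rpAll0
  · exact rpAll1
  · exact rpAll2
  · exact rpAll3
  · exact rpAll4
  · exact rpAll5
  · exact rpAll6
  · exact rpAll7
  · exact rpAll8
  · exact rpAll9
  · exact rpAll10
  · exact rpAll11
  · exact rpAll12
  · exact rpAll13

theorem relsLen : relsL.length = 14 := by decide +kernel

theorem valid_net (x : Nat) : validN (netOf x) = true := by
  by_cases hx : x < netL.length
  · have h1 : netT x = netL[x] := List.getD_eq_getElem _ _ hx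
    show validN (netV (netT x)) = true
    rw [h1]
    exact List.all_eq_true.1 validAll _ (List.getElem_mem hx)
  · have h1 : netT x = [] := List.getD_eq_default _ _ (by omega)
    show validN (netV (netT x)) = true
    rw [h1]
    rfl

theorem ok_net (x : Nat) : ∀ l ∈ netT x, l.1.ok = true := by
  by_cases hx : x < netL.length
  · have h1 : netT x = netL[x] := List.getD_eq_getElem _ _ hx
    rw [h1]
    intro l hl
    exact List.all_eq_true.1 (List.all_eq_true.1 okAll _ (List.getElem_mem hx)) l hl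
  · have h1 : netT x = [] := List.getD_eq_default _ _ (by omega)
    rw [h1]
    simp

theorem netOK : NetOK cfg netOf 21 where
  hE := fun j => posT_eq _ (ok_net _) _
  hM := by decide +kernel
  hLp := by decide +kernel
  hNm := by decide +kernel
  hk := by decide +kernel
  hv := valid_net
  hb := by
    intro x hx
    have hx' : x < 7 := hx
    interval_cases x
    · exact bdL0
    · exact bdL1
    · exact bdL2
    · exact bdL3
    · exact bdL4
    · exact bdL5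
    · exact bdL6
  hinv := by
    intro x hx
    have hx' : x < 7 := hx
    interval_cases x <;> decide +kernel
  hi := by
    intro x hx b hb
    have hx' : x < 7 := hx
    have hb' : b ∈ List.range 21 := List.mem_range.2 hb
    clear hb
    revert b
    interval_cases x
    · exact fun b hb => chkL_spec invL0 b hb
    · exact fun b hb => chkL_spec invL1 b hb
    · exact fun b hb => chkL_spec invL2 b hb
    · exact fun b hb => chkL_spec invL3 b hb
    · exact fun b hb => chkL_spec invL4 b hb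
    · exact fun b hb => chkL_spec invL5 b hb
    · exact fun b hb => chkL_spec invL6 b hb

theorem big : PBig D cfg :=
  big_of_net netOK w0Chk relLt (by
    intro a ha b hb
    obtain ⟨r, hr, rfl⟩ := List.mem_iff_getElem.1 ha
    have hr' : r < 14 := by
      have := hr
      simp only [D] at this
      rwa [relsLen] at this
    have h1 := rpAll r hr' b hb
    rw [List.getD_eq_getElem _ _ (by rw [relsLen]; exact hr')] at h1
    exact h1)
    (X := [0, 1, 2, 3, 4, 5, 6]) (by decide +kernel) (n := 10) reachAll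

theorem hgens : ∀ a, (a, true) ∈ D.lets := by intro a; cases a <;> decide

/-- the relators as a set -/
abbrev RR : Set (FreeGroup Cfsg.Spor.HN.Gen) := Cfsg.Spor.coxRelators Cfsg.Spor.HN.edges ∪ {r | r ∈ Cfsg.Spor.HN.extra}

theorem hR : ∀ r, r ∈ RR ↔ r ∈ D.rs := fun r => mem_coxR _ _ r

end Cfsg.Agent.Lib.Compute.TC.HNTT
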